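import Mathlib.Tactic.Linarith
import Mathlib.Tactic.Ring
import Mathlib.Data.Int.Order.Basic

/-!
# Inequalities for the exceptional characters
-/

set_option autoImplicit false

namespace Cfsg.Agent.Lib.PairSolvable

theorem abs_le_sub_two {c m : ℤ} (hm : 3 ≤ m) (h : c ^ 2 ≤ m - 1 ∨ (4 ≤ m ∧ c ^ 2 ≤ m)) :
    -(m - 2) ≤ c ∧ c ≤ m - 2 := by
  rcases h with h | ⟨h4, h⟩
  · constructor
    · by_contra hc
      nlinarith [mul_le_mul (show m - 1 ≤ -c by omega) (show m - 1 ≤ -c by omega) (by omega) (by omega)]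
    · by_contra hc
      nlinarith [mul_le_mul (show m - 1 ≤ c by omega) (show m - 1 ≤ c by omega) (by omega) (by omega)]
  · constructor
    · by_contra hc
      nlinarith [mul_le_mul (show m - 1 ≤ -c by omega) (show m - 1 ≤ -c by omega) (by omega) (by omega)]
    · by_contra hc
      nlinarith [mul_le_mul (show m - 1 ≤ c by omega) (show m - 1 ≤ c by omega) (by omega) (by omega)]

/-- The bound for exceptional characters in the case of a Sylow subgroup of prime order. -/
theorem exc_arith {r m γ ε a d R : ℤ} (hr : 2 ≤ r) (hm : 3 ≤ m) (hε : ε = 1 ∨ ε = -1)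
    (ha : 0 ≤ a) (h1 : 0 ≤ a + γ) (h2 : 0 ≤ a + γ + ε) (hc : r * γ ^ 2 + 2 * ε * γ ≤ m - 1)
    (hd : d = (r * m + 1) * a + r * m * γ + m * ε) (hdpos : 0 < d)
    (hR : R = -γ * (r * m) - ε * m) :
    R ≤ (m - 2) * d ∨ m - 2 ≤ r * γ ^ 2 + 2 * ε * γ := by
  have hrm : 0 ≤ r * m := by positivity
  rcases le_or_gt 0 γ with hγ | hγ
  · left
    rcases hε with rfl | rfl
    · nlinarith [mul_nonneg hγ hrm]
    · rcases hγ.eq_or_lt with h0 | h0
      · subst h0
        have ha1 : 1 ≤ a := by omega
        have : m ≤ d := by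
          rw [hd]
          nlinarith [mul_le_mul_of_nonneg_left ha1 (show 0 ≤ r * m + 1 by omega),
            mul_le_mul_of_nonneg_right hr (show 0 ≤ m by omega)]
        nlinarith
      · nlinarith [mul_le_mul_of_nonneg_right (show 1 ≤ γ by omega) hrm,
          mul_le_mul_of_nonneg_right hr (show 0 ≤ m by omega)]
  · obtain ⟨g, rfl⟩ : ∃ g, γ = -g := ⟨-γ, by omega⟩
    have hg : 1 ≤ g := by omega
    rcases hε with rfl | rfl
    · obtain ⟨k, rfl⟩ : ∃ k, a = g + k := ⟨a - g, by omega⟩
      have hk : 0 ≤ k := by omega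
      rcases hk.eq_or_lt with h0 | h0
      · subst h0
        have hd' : d = g + m := by rw [hd]; ring
        rcases (show g = 1 ∨ 2 ≤ g by omega) with rfl | hg2
        · rcases le_or_gt r (m - 1) with hr' | hr'
          · left
            rw [hR, hd']
            nlinarith [mul_le_mul_of_nonneg_left hr' (show 0 ≤ m by omega)]
          · right; linarith
        · left
          have h3 : 2 * (g * r - 2) ≤ m - 1 := by
            nlinarith [mul_le_mul_of_nonneg_right hg2 (show 0 ≤ g * r - 2 by nlinarith)]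
          have hm5 : 5 ≤ m := by nlinarith
          have h4 : g * r - 1 ≤ m - 2 := by omega
          rw [hR, hd']
          nlinarith [mul_le_mul_of_nonneg_left h4 (show 0 ≤ m by omega),
            mul_nonneg (show 0 ≤ m - 2 by omega) (show 0 ≤ g by omega)]
      · left
        have hd' : r * m ≤ d := by
          rw [hd]
          nlinarith [mul_le_mul_of_nonneg_left (show 1 ≤ k by omega) hrm]
        have hgm : g ≤ m - 2 := by
          by_contra hcon
          nlinarith [mul_le_mul (show m - 1 ≤ g by omega) (show (2 : ℤ) ≤ g by omega) (by omega) (by omega),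
            mul_le_mul_of_nonneg_right hr (sq_nonneg g)]
        rw [hR]
        nlinarith [mul_le_mul hgm hd' hrm (show 0 ≤ m - 2 by omega)]
    · left
      have ha1 : g + 1 ≤ a := by omega
      have hd' : (r - 1) * m ≤ d := by
        rw [hd]
        nlinarith [mul_le_mul_of_nonneg_left ha1 (show 0 ≤ r * m + 1 by omega)]
      have h3 : g * r + 1 ≤ (2 * g + 1) * (r - 1) := by
        nlinarith [mul_le_mul_of_nonneg_left (show 2 ≤ r by omega) (show 0 ≤ g + 1 by omega)]
      have h4 : 2 * g + 1 ≤ m - 2 := by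
        nlinarith [mul_le_mul_of_nonneg_right hr (sq_nonneg g), mul_le_mul_of_nonneg_right hg (show 0 ≤ g by omega)]
      rw [hR]
      nlinarith [mul_le_mul_of_nonneg_right h3 (show 0 ≤ m by omega),
        mul_le_mul h4 hd' (mul_nonneg (by omega) (by omega)) (show 0 ≤ m - 2 by omega)]

end Cfsg.Agent.Lib.PairSolvable
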