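import Cfsg.Agent.Lib.Block.PParts
import Mathlib.GroupTheory.Transfer
import Mathlib.GroupTheory.Sylow
import Mathlib.NumberTheory.Basic
import Mathlib.Data.ZMod.Units

/-!
# A cyclic Sylow subgroup and its automizer
-/

set_option autoImplicit false
set_option linter.unusedSectionVars false
set_option linter.style.haveILetI false

namespace Cfsg.Agent.Lib.PairSolvable

open Subgroup
open Cfsg.Agent.Lib.Block (IsPElem)

universe u

variable {p : ℕ} [Fact p.Prime] {G : Type u} [Group G] [Finite G]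

/-- In a cyclic group the elements killed by `p` are powers of any element of order `p`. -/
theorem mem_zpowers_of_pow_eq_one {Q : Subgroup G} (hQ : IsCyclic Q) {x z : G} (hx : x ∈ Q)
    (hxp : orderOf x = p) (hz : z ∈ Q) (hzp : z ^ p = 1) : z ∈ zpowers x := by
  classical
  haveI := Fintype.ofFinite Q
  haveI := hQ
  set x' : Q := ⟨x, hx⟩
  have hx' : orderOf x' = p := by rw [orderOf_mk]; exact hxp
  have hsub : (Finset.range p).image (fun i => x' ^ i) ⊆ Finset.univ.filter fun a : Q => a ^ p = 1 := by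
    intro a ha
    obtain ⟨i, -, rfl⟩ := Finset.mem_image.1 ha
    refine Finset.mem_filter.2 ⟨Finset.mem_univ _, ?_⟩
    rw [← pow_mul, mul_comm, pow_mul, ← hx', pow_orderOf_eq_one, one_pow]
  have hinj : ((Finset.range p).image fun i => x' ^ i).card = p := by
    rw [Finset.card_image_of_injOn, Finset.card_range]
    intro i hi j hj h
    exact pow_injOn_Iio_orderOf (by simpa [hx'] using hi) (by simpa [hx'] using hj) h
  have heq := Finset.eq_of_subset_of_card_le hsub
    ((IsCyclic.card_pow_eq_one_le (Fact.out : p.Prime).pos).trans hinj.ge)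
  have hz' : (⟨z, hz⟩ : Q) ∈ (Finset.range p).image fun i => x' ^ i := by
    rw [heq]
    exact Finset.mem_filter.2 ⟨Finset.mem_univ _, Subtype.ext hzp⟩
  obtain ⟨i, -, hi⟩ := Finset.mem_image.1 hz'
  exact ⟨(i : ℤ), by simpa [x'] using congrArg Subtype.val hi⟩

/-- Every non-trivial member of a cyclic `p`-group has the element of order `p` as a power. -/
theorem mem_zpowers_of_ne_one {Q : Subgroup G} (hQ : IsCyclic Q) (hQp : IsPGroup p Q) {x u : G}
    (hx : x ∈ Q) (hxp : orderOf x = p) (hu : u ∈ Q) (hu1 : u ≠ 1) : x ∈ zpowers u := by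
  obtain ⟨k, hk⟩ := Block.isPElem_of_mem hQp hu
  obtain ⟨j, rfl⟩ : ∃ j, k = j + 1 := ⟨k - 1, by
    rcases Nat.eq_zero_or_pos k with rfl | h
    · exact absurd (orderOf_eq_one_iff.1 (by simpa using hk)) hu1
    · omega⟩
  set w := u ^ p ^ j with hw
  have hwo : orderOf w = p := by
    rw [hw, orderOf_pow' u (pow_ne_zero _ (Fact.out : p.Prime).ne_zero), hk,
      Nat.gcd_eq_right (pow_dvd_pow p j.le_succ), pow_succ]
    exact Nat.mul_div_cancel_left _ (pow_pos (Fact.out : p.Prime).pos _)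
  have h := mem_zpowers_of_pow_eq_one hQ (pow_mem hu _) hwo hx (by rw [← hxp, pow_orderOf_eq_one])
  exact zpowers_le.2 (pow_mem (mem_zpowers u) _) h

variable {P : Sylow p G}

/-- A normalising element fixing the element of order `p` centralises the cyclic Sylow group. -/
theorem mem_centralizer_of_fix (hP : IsCyclic (P : Subgroup G)) {x : G} (hx : x ∈ (P : Subgroup G))
    (hxp : orderOf x = p) {n : G} (hn : n ∈ normalizer ((P : Subgroup G) : Set G))
    (hnx : n * x * n⁻¹ = x) : n ∈ centralizer ((P : Subgroup G) : Set G) := by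
  haveI := hP
  obtain ⟨g, hg⟩ := IsCyclic.exists_generator (α := (P : Subgroup G))
  obtain ⟨N, hN⟩ := Block.isPElem_of_mem P.2 g.2
  have hgen : ∀ y ∈ (P : Subgroup G), ∃ i : ℕ, (g : G) ^ i = y := fun y hy => by
    obtain ⟨i, hi⟩ := (isOfFinOrder_of_finite g).mem_powers_iff_mem_zpowers.2 (hg ⟨y, hy⟩)
    exact ⟨i, by simpa using congrArg Subtype.val hi⟩
  obtain ⟨a, ha⟩ := hgen (n * g * n⁻¹) ((mem_normalizer_iff.1 hn (g : G)).1 g.2)
  have hiter : ∀ i : ℕ, n ^ i * g * (n ^ i)⁻¹ = (g : G) ^ (a ^ i) := by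
    intro i
    induction i with
    | zero => simp
    | succ i ih =>
      calc n ^ (i + 1) * g * (n ^ (i + 1))⁻¹ = n * (n ^ i * g * (n ^ i)⁻¹) * n⁻¹ := by
            rw [pow_succ']; group
        _ = (n * g * n⁻¹) ^ (a ^ i) := by rw [ih, conj_pow]
        _ = (g : G) ^ (a ^ (i + 1)) := by rw [← ha, ← pow_mul, pow_succ']
  -- a power prime to p centralises
  haveI : IsMulCommutative (P : Subgroup G) := inferInstance
  set C := (centralizer ((P : Subgroup G) : Set G)).subgroupOf (normalizer ((P : Subgroup G) : Set G))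
  haveI : C.Normal := by
    rw [show C = (normalizerMonoidHom (P : Subgroup G)).ker from (normalizerMonoidHom_ker _).symm]
    exact MonoidHom.normal_ker _
  have hk : ¬ p ∣ C.index := fun h => P.not_dvd_index (h.trans
    ((relIndex_dvd_of_le_left _ P.le_centralizer).trans (relIndex_dvd_index_of_le P.le_normalizer)))
  have hmem := C.pow_index_mem ⟨n, hn⟩
  rw [mem_subgroupOf, SubmonoidClass.coe_pow] at hmem
  have h1 : (g : G) ^ (a ^ C.index) = (g : G) ^ 1 := by
    rw [← hiter, pow_one, ← mem_centralizer_iff.1 hmem _ g.2, mul_inv_cancel_right]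
  -- modulo p
  obtain ⟨j, hj⟩ := hgen x hx
  have h2 : (g : G) ^ (a * j) = (g : G) ^ (1 * j) := by
    rw [pow_mul, ha, conj_pow, hj, hnx, one_mul, hj]
  have hN0 : N ≠ 0 := by
    intro h
    subst h
    rw [pow_zero, orderOf_eq_one_iff] at hN
    rw [hN, one_pow] at hj
    subst hj
    rw [orderOf_one] at hxp
    exact (Fact.out : p.Prime).one_lt.ne hxp
  rw [pow_eq_pow_iff_modEq, hN] at h1 h2
  have hap : (a : ZMod p) = 1 := by
    have hjp : ¬ p ^ N ∣ j := fun h => by
      have : x = 1 := by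
        rw [← hj]
        exact orderOf_dvd_iff_pow_eq_one.1 (hN ▸ h)
      rw [this, orderOf_one] at hxp
      exact (Fact.out : p.Prime).one_lt.ne hxp
    by_contra hne
    have hcop : Nat.Coprime (p ^ N) ((a : ℤ) - 1).natAbs := by
      refine Nat.Coprime.pow_left _ ((Fact.out : p.Prime).coprime_iff_not_dvd.2 fun h => hne ?_)
      have h' : ((((a : ℤ) - 1) : ℤ) : ZMod p) = 0 :=
        (ZMod.intCast_zmod_eq_zero_iff_dvd _ p).2 (Int.ofNat_dvd_left.2 h)
      simpa [sub_eq_zero] using h'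
    refine hjp (hcop.dvd_of_dvd_mul_left ?_)
    have h3 := Int.natAbs_dvd_natAbs.2 (Int.modEq_iff_dvd.1 (Int.natCast_modEq_iff.2 h2.symm))
    rw [Int.natAbs_natCast] at h3
    rwa [show (((a * j : ℕ) : ℤ) - ((1 * j : ℕ) : ℤ)) = ((a : ℤ) - 1) * (j : ℤ) by push_cast; ring,
      Int.natAbs_mul, Int.natAbs_natCast] at h3
  -- the multiplier is one
  have hA : (a : ZMod (p ^ N)) ^ C.index = 1 := by
    have := (ZMod.natCast_eq_natCast_iff _ _ _).2 h1
    simpa using this
  have hB : (a : ZMod (p ^ N)) ^ p ^ N = 1 := by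
    have hd : (p : ℤ) ∣ (a : ℤ) - 1 := by
      rw [← ZMod.intCast_zmod_eq_zero_iff_dvd]
      simp [hap]
    have h4 := (pow_dvd_pow (p : ℤ) N.le_succ).trans (by simpa using dvd_sub_pow_of_dvd_sub hd N)
    rw [← Nat.cast_pow, ← ZMod.intCast_zmod_eq_zero_iff_dvd] at h4
    simpa [sub_eq_zero] using h4
  have h5 : (a : ZMod (p ^ N)) = 1 := by
    have h := pow_gcd_eq_one.2 ⟨hA, hB⟩
    rwa [show C.index.gcd (p ^ N) = 1 from Nat.Coprime.pow_right _
      (((Fact.out : p.Prime).coprime_iff_not_dvd.2 hk).symm), pow_one] at h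
  have h6 : n * g * n⁻¹ = g := by
    rw [← ha]
    conv_rhs => rw [← pow_one (g : G)]
    rw [pow_eq_pow_iff_modEq, hN, ← ZMod.natCast_eq_natCast_iff, h5, Nat.cast_one]
  refine mem_centralizer_iff.2 fun y hy => ?_
  obtain ⟨i, rfl⟩ := hgen y hy
  exact ((show Commute n (g : G) from mul_inv_eq_iff_eq_mul.1 h6).pow_right i).eq.symm

variable (P) in
/-- The automorphisms of `P` induced by its normaliser. -/
def auto : Subgroup (MulAut (P : Subgroup G)) :=
  (normalizerMonoidHom (P : Subgroup G)).range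

theorem auto_apply {σ : MulAut (P : Subgroup G)} (hσ : σ ∈ auto P) :
    ∃ n ∈ normalizer ((P : Subgroup G) : Set G), ∀ u : (P : Subgroup G),
      (σ u : G) = n * u * n⁻¹ := by
  obtain ⟨n, rfl⟩ := hσ
  exact ⟨n, n.2, fun u => rfl⟩

theorem auto_eq_one_of_fix (hP : IsCyclic (P : Subgroup G)) {σ : MulAut (P : Subgroup G)}
    (hσ : σ ∈ auto P) {u : (P : Subgroup G)} (hu : u ≠ 1) (hfix : σ u = u) : σ = 1 := by
  obtain ⟨n, hn, hval⟩ := auto_apply hσ
  obtain ⟨x, hx⟩ := exists_prime_orderOf_dvd_card' (G := (P : Subgroup G)) p (by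
    obtain ⟨k, hk⟩ := IsPGroup.iff_card.1 P.2
    rw [hk]
    refine dvd_pow_self p ?_
    rintro rfl
    rw [pow_zero] at hk
    exact hu (@Subsingleton.elim _ (Nat.card_eq_one_iff_unique.1 hk).1 u 1))
  have hxu : (x : G) ∈ zpowers (u : G) := mem_zpowers_of_ne_one hP P.2 x.2
    ((orderOf_coe x).trans hx) u.2 fun h => hu (Subtype.ext h)
  obtain ⟨i, hi⟩ := hxu
  have hnu : Commute n (u : G) := mul_inv_eq_iff_eq_mul.1 ((hval u).symm.trans (congrArg _ hfix))
  have hnx : n * (x : G) * n⁻¹ = x := by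
    rw [← hi]
    exact mul_inv_eq_iff_eq_mul.2 (hnu.zpow_right i).eq
  have hc := mem_centralizer_of_fix hP x.2 ((orderOf_coe x).trans hx) hn hnx
  refine MulEquiv.ext fun w => Subtype.ext ?_
  rw [hval w]
  exact mul_inv_eq_iff_eq_mul.2 (mem_centralizer_iff.1 hc _ w.2).symm

/-- Burnside's fusion. -/
theorem exists_auto_of_isConj (hP : IsCyclic (P : Subgroup G)) {u v : (P : Subgroup G)}
    (h : IsConj (u : G) v) : ∃ σ ∈ auto P, σ u = v := by
  haveI := hP
  haveI : IsMulCommutative (P : Subgroup G) := inferInstance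
  obtain ⟨c, hc⟩ := isConj_iff.1 h
  have hy : c⁻¹⁻¹ * (u : G) * c⁻¹ ∈ (P : Subgroup G) := by rw [inv_inv, hc]; exact v.2
  obtain ⟨n, hn, hn'⟩ := P.conj_eq_normalizer_conj_of_mem (u : G) c⁻¹ u.2 hy
  refine ⟨_, ⟨⟨n⁻¹, inv_mem hn⟩, rfl⟩, Subtype.ext ?_⟩
  show n⁻¹ * (u : G) * n⁻¹⁻¹ = v
  rw [inv_inv, ← hn', inv_inv, hc]

theorem isConj_auto {σ : MulAut (P : Subgroup G)} (hσ : σ ∈ auto P) (u : (P : Subgroup G)) :
    IsConj (u : G) (σ u : G) := by
  obtain ⟨n, -, hn⟩ := auto_apply hσ
  exact isConj_iff.2 ⟨n, (hn u).symm⟩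

/-- The centraliser of a non-trivial element of `P` has a normal `p`-complement. -/
theorem exists_complement_centralizer (hP : IsCyclic (P : Subgroup G)) {u : G}
    (hu : u ∈ (P : Subgroup G)) (hu1 : u ≠ 1) :
    ∃ K : Subgroup (centralizer ({u} : Set G)), K.Normal ∧ ¬ p ∣ Nat.card K ∧
      K.index = Nat.card (P : Subgroup G) := by
  haveI := hP
  haveI : IsMulCommutative (P : Subgroup G) := inferInstance
  have hle : (P : Subgroup G) ≤ centralizer ({u} : Set G) := fun g hg =>
    mem_centralizer_singleton_iff.2 (mem_centralizer_iff.1 (P.le_centralizer hg) u hu).symm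
  set S := P.subtype hle with hS
  obtain ⟨x, hxp⟩ := exists_prime_orderOf_dvd_card' (G := (P : Subgroup G)) p (by
    obtain ⟨k, hk⟩ := IsPGroup.iff_card.1 P.2
    rw [hk]
    refine dvd_pow_self p ?_
    rintro rfl
    rw [pow_zero] at hk
    exact hu1 (congrArg Subtype.val (@Subsingleton.elim _ (Nat.card_eq_one_iff_unique.1 hk).1
      (⟨u, hu⟩ : (P : Subgroup G)) 1)))
  obtain ⟨i, hi⟩ := mem_zpowers_of_ne_one hP P.2 x.2 ((orderOf_coe x).trans hxp) hu hu1
  have hNC : normalizer ((S : Subgroup (centralizer ({u} : Set G))) : Set (centralizer ({u} : Set G))) ≤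
      centralizer ((S : Subgroup (centralizer ({u} : Set G))) : Set (centralizer ({u} : Set G))) := by
    intro n hn
    have hnN : (n : G) ∈ normalizer ((P : Subgroup G) : Set G) := by
      rw [mem_normalizer_iff] at hn ⊢
      intro g
      constructor
      · intro hg
        have h := (hn ⟨g, hle hg⟩).1 hg
        exact h
      · intro hg
        have hgC : g ∈ centralizer ({u} : Set G) := by
          have h := mul_mem (mul_mem (inv_mem n.2) (hle hg)) n.2
          simpa [mul_assoc] using h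
        exact (hn ⟨g, hgC⟩).2 hg
    have hnu : Commute (n : G) u := mem_centralizer_singleton_iff.1 n.2
    have hc := mem_centralizer_of_fix hP x.2 ((orderOf_coe x).trans hxp) hnN
      (mul_inv_eq_iff_eq_mul.2 (hi ▸ (hnu.zpow_right i).eq))
    refine mem_centralizer_iff.2 fun y hy => Subtype.ext ?_
    exact mem_centralizer_iff.1 hc _ hy
  refine ⟨(MonoidHom.transferSylow S hNC).ker, inferInstance,
    MonoidHom.not_dvd_card_ker_transferSylow S hNC, ?_⟩
  rw [(MonoidHom.ker_transferSylow_isComplement' S hNC).symm.index_eq_card]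
  exact Nat.card_congr (subgroupOfEquivOfLe hle).toEquiv

end Cfsg.Agent.Lib.PairSolvable
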