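import Cfsg.Agent.Lib.PairSolvable.Cyclic
import Cfsg.Agent.Lib.LocalFusion.PSolvable
import Cfsg.Agent.Lib.PLength.Basic
import Cfsg.Agent.Lib.Char2.Basic
import Cfsg.Agent.Lib.Hall.Basic

/-!
# Two elements of order `p` generating a `p`-solvable group
-/

set_option autoImplicit false
set_option linter.unusedSectionVars false
set_option linter.style.haveILetI false

namespace Cfsg.Agent.Lib.PairSolvable

open Subgroup Cfsg Cfsg.Agent.Lib
open Cfsg.Agent.Lib.Block (IsPElem)

universe u

variable {p : ℕ} [Fact p.Prime] {G : Type u} [Group G] [Finite G]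

/-- All `p`-subgroups are cyclic when one Sylow subgroup is. -/
theorem isCyclic_of_isPGroup {P : Sylow p G} (hP : IsCyclic (P : Subgroup G)) {Q : Subgroup G}
    (hQ : IsPGroup p Q) : IsCyclic Q := by
  obtain ⟨T, hT⟩ := hQ.exists_le_sylow
  haveI : IsCyclic (T : Subgroup G) := isCyclic_of_surjective (P.equiv T) (MulEquiv.surjective _)
  exact isCyclic_of_injective (Subgroup.inclusion hT) (Subgroup.inclusion_injective hT)

/-- The structure of a `p`-solvable subgroup generated by two elements of order `p`. -/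
theorem pair_structure {P : Sylow p G} (hP : IsCyclic (P : Subgroup G)) {x y : G}
    (hx : orderOf x = p) (hy : orderOf y = p)
    (h : Cfsg.IsPSolvable p (Subgroup.closure ({x, y} : Set G))) :
    ∃ k ∈ Finset.Ico 1 p, IsConj (x ^ k) y ∧
      (∀ j ∈ Finset.Ico 1 p, (¬ p ∣ orderOf ((x ^ j)⁻¹ * y) ↔ j = k)) ∧
      (k ≠ 1 → ∃ z, IsPPart p (x⁻¹ * y) z ∧ IsConj z (x ^ (k - 1))) := by
  classical
  have hp : p.Prime := Fact.out
  set X := Subgroup.closure ({x, y} : Set G) with hX
  set x' : X := ⟨x, subset_closure (Set.mem_insert _ _)⟩ with hx'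
  set y' : X := ⟨y, subset_closure (Set.mem_insert_of_mem _ rfl)⟩ with hy'
  have hx'o : orderOf x' = p := by rw [hx', orderOf_mk]; exact hx
  have hy'o : orderOf y' = p := by rw [hy', orderOf_mk]; exact hy
  set O := pPrimeCore p X with hO
  haveI : O.Normal := by rw [hO]; infer_instance
  set π := QuotientGroup.mk' O with hπ
  have hπs : Function.Surjective π := QuotientGroup.mk'_surjective O
  have hO1 : pPrimeCore p (X ⧸ O) = ⊥ := Char2.pPrimeCore_quotient_eq_bot p
  have hsolv : IsPSolvable p (X ⧸ O) := PLength.isPSolvable_map hπs h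
  -- Sylow subgroups of the quotient
  obtain ⟨S⟩ : Nonempty (Sylow p X) := inferInstance
  set T := S.mapSurjective hπs with hT
  have hSc : IsCyclic (S : Subgroup X) := by
    haveI := isCyclic_of_isPGroup hP (S.2.map X.subtype)
    exact isCyclic_of_injective ((X.subtype).subgroupMap (S : Subgroup X))
      (fun a b hab => Subtype.ext (X.subtype_injective (congrArg Subtype.val hab :)))
  have hTc : IsCyclic (T : Subgroup (X ⧸ O)) := by
    haveI := hSc
    rw [hT, Sylow.coe_mapSurjective]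
    exact isCyclic_of_surjective (π.subgroupMap (S : Subgroup X)) (π.subgroupMap_surjective _)
  haveI hQn : (pCore p (X ⧸ O)).Normal := pCore_normal p _
  set Q := pCore p (X ⧸ O) with hQ
  have hTQ : (T : Subgroup (X ⧸ O)) ≤ Q := by
    refine le_trans ?_ (LocalFusion.centralizer_pCore_le_of_isPSolvable hsolv hO1)
    haveI := hTc
    haveI : IsMulCommutative (T : Subgroup (X ⧸ O)) := inferInstance
    exact T.le_centralizer.trans (centralizer_le (Hall.pCore_le_sylow T))
  have hQT : Q = T := le_antisymm (Hall.pCore_le_sylow T) hTQ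
  have hpQ : ∀ {w : X ⧸ O}, w ^ p = 1 → w ∈ Q := by
    intro w hw
    have hwp : IsPGroup p (zpowers w) := Block.IsPElem.isPGroup_zpowers
      (Block.isPElem_iff.2 ⟨1, by rwa [pow_one]⟩)
    have hsup : IsPGroup p (Q ⊔ zpowers w : Subgroup (X ⧸ O)) :=
      IsPGroup.to_sup_of_normal_left (Hall.isPGroup_pCore p) hwp
    have h1 : (Q ⊔ zpowers w : Subgroup (X ⧸ O)) = T := T.3 hsup (hQT ▸ le_sup_left)
    rw [hQT, ← h1]
    exact mem_sup_right (mem_zpowers w)
  have hQc : IsCyclic Q := by rw [hQT]; exact hTc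
  -- regular elements vanish in the quotient
  have hreg : ∀ w : X, w ∈ O → ¬ p ∣ orderOf w := fun w hw hd => Hall.not_dvd_card_pPrimeCore hp
    (hd.trans (by rw [← orderOf_mk _ hw]; exact orderOf_dvd_natCard _))
  set xb := π x' with hxb
  have hxb1 : orderOf xb = p := by
    refine ((Nat.dvd_prime hp).1 (hx'o ▸ orderOf_map_dvd π x')).resolve_left fun h1 => ?_
    rw [orderOf_eq_one_iff, hxb, hπ, QuotientGroup.mk'_apply, QuotientGroup.eq_one_iff] at h1
    exact hreg _ h1 (by rw [hx'o])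
  have hxQ : xb ∈ Q := hpQ (by rw [← hxb1, pow_orderOf_eq_one])
  have hyQ : π y' ∈ zpowers xb := by
    have hyp : (π y') ^ p = 1 := by rw [← map_pow, ← hy'o, pow_orderOf_eq_one, map_one]
    exact mem_zpowers_of_pow_eq_one hQc hxQ hxb1 (hpQ hyp) hyp
  have hall : ∀ w : X, π w ∈ zpowers xb := by
    have htop : Subgroup.closure ({x', y'} : Set X) = ⊤ := by
      refine map_injective X.subtype_injective ?_
      rw [MonoidHom.map_closure, ← MonoidHom.range_eq_map, range_subtype, Set.image_pair]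
      rfl
    have hle : Subgroup.closure ({x', y'} : Set X) ≤ (zpowers xb).comap π := by
      rw [closure_le]
      rintro w (rfl | rfl)
      · exact mem_zpowers _
      · exact hyQ
    exact fun w => hle (htop ▸ mem_top w)
  have hcomm : ∀ a b : X, π a * π b = π b * π a := by
    intro a b
    obtain ⟨i, hi⟩ := hall a
    obtain ⟨j, hj⟩ := hall b
    rw [← hi, ← hj]
    exact ((Commute.refl xb).zpow_zpow i j).eq
  have hregπ : ∀ w : X, ¬ p ∣ orderOf w → π w = 1 := by
    intro w hw
    rw [← orderOf_eq_one_iff]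
    refine Nat.eq_one_of_dvd_coprimes (k := orderOf (π w)) (a := orderOf w) (b := p)
      (hp.coprime_iff_not_dvd.2 hw).symm (orderOf_map_dvd π w) ?_
    obtain ⟨i, hi⟩ := hall w
    refine orderOf_dvd_of_pow_eq_one ?_
    rw [← hi, ← zpow_natCast, ← zpow_mul, mul_comm, zpow_mul, zpow_natCast, ← hxb1,
      pow_orderOf_eq_one, one_zpow]
  have hker : ∀ w : X, π w = 1 → ¬ p ∣ orderOf w := fun w hw =>
    hreg w ((QuotientGroup.eq_one_iff w).1 hw)
  -- the exponent
  obtain ⟨k₀, hk₀⟩ := (isOfFinOrder_of_finite xb).mem_powers_iff_mem_zpowers.2 hyQ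
  set k := k₀ % p with hk
  have hky : xb ^ k = π y' := by
    rw [hk, ← hk₀]
    conv_lhs => rw [← hxb1, pow_mod_orderOf]
  have hk1 : 1 ≤ k := by
    rcases Nat.eq_zero_or_pos k with h0 | h0
    · rw [h0, pow_zero] at hky
      exact absurd (by rw [hy'o]) (hker y' hky.symm)
    · exact h0
  have hkp : k < p := Nat.mod_lt _ hp.pos
  -- elements of order p
  have hconj : ∀ z : X, ∀ j : ℕ, 1 ≤ j → j < p → z ^ p = 1 → π z = xb ^ j →
      IsConj (x ^ j) (z : G) := by
    intro z j hj1 hjp hz hzj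
    have hcard : Nat.card X = Nat.card O * p := by
      rw [← O.card_mul_index, Subgroup.index_eq_card, ← hxb1, ← Nat.card_zpowers]
      congr 1
      refine Nat.card_congr (Equiv.ofBijective (fun w : zpowers xb => (w : X ⧸ O)) ?_).symm
      exact ⟨Subtype.val_injective, fun q => by
        obtain ⟨w, rfl⟩ := hπs q
        exact ⟨⟨π w, hall w⟩, rfl⟩⟩
    have hSp : ∀ S' : Sylow p X, Nat.card (S' : Subgroup X) = p := by
      intro S'
      rw [Sylow.card_eq_multiplicity, hcard, Nat.factorization_mul Nat.card_pos.ne' hp.ne_zero,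
        Finsupp.add_apply, Nat.Prime.factorization_self hp,
        Nat.factorization_eq_zero_of_not_dvd (Hall.not_dvd_card_pPrimeCore hp), zero_add, pow_one]
    have hgrp : ∀ w : X, w ^ p = 1 → IsPGroup p (zpowers w) := fun w hw =>
      Block.IsPElem.isPGroup_zpowers (Block.isPElem_iff.2 ⟨1, by rwa [pow_one]⟩)
    have hxp' : x' ^ p = 1 := by rw [← hx'o, pow_orderOf_eq_one]
    obtain ⟨S₁, hS₁⟩ := (hgrp x' hxp').exists_le_sylow
    obtain ⟨S₂, hS₂⟩ := (hgrp z hz).exists_le_sylow
    have hS₁e : zpowers x' = S₁ := eq_of_le_of_card_ge hS₁ (by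
      rw [hSp, Nat.card_zpowers, hx'o])
    obtain ⟨c, hc⟩ := MulAction.exists_smul_eq X S₁ S₂
    have hzm : z ∈ (S₂ : Subgroup X) := hS₂ (mem_zpowers z)
    rw [← hc, Sylow.coe_subgroup_smul, Subgroup.mem_pointwise_smul_iff_inv_smul_mem, ← hS₁e] at hzm
    obtain ⟨i, hi⟩ := hzm
    replace hi : x' ^ i = c⁻¹ * z * c := by
      rw [show x' ^ i = _ from hi]
      simp [MulAut.smul_def, MulAut.conj_symm_apply]
    have h1 : xb ^ i = xb ^ (j : ℤ) := by
      rw [hxb, ← map_zpow, hi, map_mul, map_mul, map_inv, mul_assoc, hcomm z c,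
        inv_mul_cancel_left, hzj, zpow_natCast]
    rw [zpow_eq_zpow_iff_modEq, hxb1, ← hx'o, ← zpow_eq_zpow_iff_modEq, zpow_natCast, hi] at h1
    refine isConj_iff.2 ⟨(c : G), ?_⟩
    have h2 := congrArg Subtype.val h1
    simp only [coe_mul, InvMemClass.coe_inv, SubmonoidClass.coe_pow, hx'] at h2
    rw [← h2]
    group
  refine ⟨k, Finset.mem_Ico.2 ⟨hk1, hkp⟩, ?_, fun j hj => ?_, fun hk2 => ?_⟩
  · simpa [hy'] using hconj y' k hk1 hkp (by rw [← hy'o, pow_orderOf_eq_one]) hky.symm
  · obtain ⟨hj1, hjp⟩ := Finset.mem_Ico.1 hj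
    have e : (x ^ j)⁻¹ * y = (((x' ^ j)⁻¹ * y' : X) : G) := by simp [hx', hy']
    have he : π ((x' ^ j)⁻¹ * y') = (xb ^ j)⁻¹ * xb ^ k := by
      rw [map_mul, map_inv, map_pow, ← hxb, hky]
    rw [e, orderOf_coe]
    constructor
    · intro hr
      have h0 := hregπ _ hr
      rw [he, inv_mul_eq_one] at h0
      exact pow_injOn_Iio_orderOf (show j < orderOf xb by rw [hxb1]; exact hjp)
        (show k < orderOf xb by rw [hxb1]; exact hkp) h0
    · rintro rfl
      exact hker _ (by rw [he, inv_mul_cancel])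
  · set w : X := x'⁻¹ * y' with hw
    obtain ⟨z, r, hzr, hc, hz, hr⟩ := Block.exists_isPPart (p := p) w
    have hπw : π w = xb ^ (k - 1) := by
      rw [hw, map_mul, map_inv, ← hky, ← hxb]
      conv_lhs => rw [show k = 1 + (k - 1) by omega, pow_add, pow_one, inv_mul_cancel_left]
    have hπz : π z = xb ^ (k - 1) := by
      rw [← hπw, ← hzr, map_mul, hregπ r hr, mul_one]
    have hzp : z ^ p = 1 := by
      refine Block.eq_one_of_isPElem_of_regular (p := p) ?_ (hker _ ?_)
      · obtain ⟨i, hi⟩ := Block.isPElem_iff.1 hz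
        exact Block.isPElem_iff.2 ⟨i, by rw [← pow_mul, mul_comm, pow_mul, hi, one_pow]⟩
      · rw [map_pow, hπz, ← pow_mul, mul_comm, pow_mul, ← hxb1, pow_orderOf_eq_one, one_pow]
    refine ⟨(z : G), ?_, (hconj z (k - 1) (by omega) (by omega) hzp hπz).symm⟩
    refine ⟨(r : G), ?_, hc.map X.subtype, ?_, by rwa [orderOf_coe]⟩
    · rw [← coe_mul, hzr, hw]
      simp [hx', hy']
    · obtain ⟨i, hi⟩ := hz
      exact ⟨i, by rwa [orderOf_coe]⟩

end Cfsg.Agent.Lib.PairSolvable
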