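import Cfsg.Agent.Lib.FreeInertial.Fourier
import Cfsg.Agent.Lib.Char.Coherent
import Cfsg.Agent.Lib.Dade.Lattice

/-!
# Multiplicity vectors of a block on a cyclic Sylow subgroup with free automizer
-/

set_option autoImplicit false
set_option linter.unusedSectionVars false
set_option linter.style.haveILetI false
set_option maxHeartbeats 1000000

namespace Cfsg.Agent.Lib.PairSolvable

open Cfsg Cfsg.Agent.Lib Cfsg.Agent.Lib.FreeInertial
open scoped ComplexConjugate

universe u

variable {G : Type u} [Group G] [Fintype G] {P : Type u} [CommGroup P] [Fintype P]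

theorem apply_inv_eq_conj (l : P →* ℂˣ) (x : P) : (l x⁻¹ : ℂ) = conj (l x : ℂ) :=
  Char.char_inv (Char.isCharacter_of_isIrr (Char.isIrrCharacter_linear l)) x

theorem dual_inv_eq_one {l : P →* ℂˣ} : l⁻¹ = 1 ↔ l = 1 := by
  simp only [DFunLike.ext_iff, MonoidHom.inv_apply, MonoidHom.one_apply, inv_eq_one]

theorem dual_inv_mul_eq_one {l l' : P →* ℂˣ} : l⁻¹ * l' = 1 ↔ l' = l := by
  simp only [DFunLike.ext_iff, MonoidHom.mul_apply, MonoidHom.inv_apply, MonoidHom.one_apply,
    inv_mul_eq_one]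
  exact forall_congr' fun u => eq_comm

/-- The multiplicity of a linear character in a restriction. -/
theorem exists_nat_coef (ι : P →* G) (χ : IrrCharacter G) (l : P →* ℂˣ) :
    ∃ n : ℕ, coef (fun u => (χ : G → ℂ) (ι u)) l = n := by
  obtain ⟨n, hn⟩ := Char.classInner_natCast
    (Char.isCharacter_comp (Char.isCharacter_of_isIrr χ.2) ι)
    (Char.isCharacter_of_isIrr (Char.isIrrCharacter_linear l))
  refine ⟨n, ?_⟩
  rw [← hn, coef, classInner, Nat.card_eq_fintype_card]
  simp only [apply_inv_eq_conj, Function.comp_apply]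

/-- A geometric sum over the non-zero exponents. -/
theorem sum_pow_Ico {p : ℕ} (hp : 1 < p) {z : ℂ} (hz : z ^ p = 1) [Decidable (z = 1)] :
    ∑ l ∈ Finset.Ico 1 p, z ^ l = if z = 1 then (p : ℂ) - 1 else -1 := by
  split_ifs with h
  · subst h
    simp [Nat.cast_sub hp.le]
  · have h0 : ∑ l ∈ Finset.range p, z ^ l = 0 := by rw [geom_sum_eq h, hz, sub_self, zero_div]
    rw [Finset.range_eq_Ico, Finset.sum_eq_sum_Ico_succ_bot (by omega : 0 < p), pow_zero] at h0
    exact eq_neg_of_add_eq_zero_right h0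

open scoped Classical in
/-- The multiplicity vectors. -/
theorem exists_vectors (ι : P →* G) (E : Subgroup (MulAut P)) [Fintype E]
    (hfree : ∀ σ ∈ E, ∀ u : P, u ≠ 1 → σ u = u → σ = 1) (B : Finset (IrrCharacter G))
    (hinv : ∀ σ ∈ E, ∀ u : P, ∀ χ ∈ B, (χ : G → ℂ) (ι (σ u)) = (χ : G → ℂ) (ι u))
    (horth : ∀ u v : P, u ≠ 1 → v ≠ 1 → ∑ χ ∈ B, (χ : G → ℂ) (ι u) * conj ((χ : G → ℂ) (ι v)) =
      if ∃ σ ∈ E, σ u = v then (Fintype.card P : ℂ) else 0)
    (horth1 : ∀ u : P, u ≠ 1 → ∑ χ ∈ B, (χ : G → ℂ) (ι u) * conj ((χ : G → ℂ) 1) = 0)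
    {p : ℕ} (hp : p.Prime) {x : P} (hx : orderOf x = p)
    (hEx : ∀ σ ∈ E, σ x ∈ Subgroup.zpowers x) :
    ∃ (T : Type u) (_ : Fintype T) (Λ : T → P → ℂ) (ker : T → Prop) (b : IrrCharacter G → T → ℤ)
      (a : IrrCharacter G → ℕ),
      Fintype.card T * Fintype.card E + 1 = Fintype.card P ∧
      (∀ χ ∈ B, ∀ t, 0 ≤ (a χ : ℤ) + b χ t) ∧
      (∀ χ ∈ B, ∀ u : P, u ≠ 1 → (χ : G → ℂ) (ι u) = ∑ t, (b χ t : ℂ) * Λ t u) ∧
      (∀ χ ∈ B, (χ : G → ℂ) 1 =
        (((Fintype.card P : ℤ) * a χ + (Fintype.card E : ℤ) * ∑ t, b χ t : ℤ) : ℂ)) ∧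
      (∀ t s, ∑ χ ∈ B, b χ t * b χ s = (Fintype.card E : ℤ) + if t = s then 1 else 0) ∧
      (∀ t, ∑ χ ∈ B, (b χ t : ℂ) * (χ : G → ℂ) 1 = 0) ∧
      (∀ u : P, u ≠ 1 → ∑ t, Λ t u = -1) ∧
      (∀ t u, IsIntegral ℤ (Λ t u)) ∧
      (∀ t, ker t → Λ t x = (Fintype.card E : ℂ)) ∧
      (∀ t, ∑ l ∈ Finset.Ico 1 p, conj (Λ t (x ^ l)) =
        (Fintype.card E : ℂ) * if ker t then (p : ℂ) - 1 else -1) ∧
      (p < Fintype.card P → ∃ t, ker t) ∧ (Fintype.card P = p → ∀ t, ¬ ker t) ∧
      (∀ χ ∈ B, (∀ u, (χ : G → ℂ) (ι u) = 1) → a χ = 1 ∧ ∀ t, b χ t = -1) := by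
  choose n hn using exists_nat_coef ι
  let cp : (P →* ℂˣ) → MulAut P → (P →* ℂˣ) := fun l σ => l.comp σ.toMonoidHom
  have hcp : ∀ l σ u, cp l σ u = l (σ u) := fun l σ u => rfl
  have hcomp : ∀ l (σ τ : MulAut P), cp (cp l σ) τ = cp l (σ * τ) := fun l σ τ => rfl
  have hcp1 : ∀ l, cp l 1 = l := fun l => rfl
  -- freeness on the dual
  have hdfree : ∀ l : P →* ℂˣ, l ≠ 1 → ∀ σ ∈ E, cp l σ = l → σ = 1 := by
    intro l hl σ hσ hfix
    by_contra hne
    let f : P →* P := MonoidHom.mk' (fun u => σ u * u⁻¹) fun u v => by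
      rw [map_mul, mul_inv_rev]; ac_rfl
    have hinj : Function.Injective f := (injective_iff_map_eq_one f).2 fun u hu => by
      by_contra hu1
      exact hne (hfree σ hσ u hu1 (mul_inv_eq_one.1 hu))
    refine hl (MonoidHom.ext fun w => ?_)
    obtain ⟨u, rfl⟩ := (Finite.injective_iff_surjective.1 hinj) w
    show l (σ u * u⁻¹) = 1
    rw [map_mul, ← hcp, hfix, map_inv, mul_inv_cancel]
  -- orbits
  let orb : (P →* ℂˣ) → Finset (P →* ℂˣ) := fun l =>
    Finset.univ.image fun σ : E => cp l (σ : MulAut P)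
  let O : Finset (Finset (P →* ℂˣ)) := (Finset.univ.filter fun l : P →* ℂˣ => l ≠ 1).image orb
  have hrep : ∀ o : {o // o ∈ O}, ∃ l : P →* ℂˣ, l ≠ 1 ∧ orb l = o.1 := fun o => by
    obtain ⟨l, hl, he⟩ := Finset.mem_image.1 o.2
    exact ⟨l, (Finset.mem_filter.1 hl).2, he⟩
  choose r hr1 hr using hrep
  have horb : ∀ (l : P →* ℂˣ) (σ : E), orb (cp l σ) = orb l := by
    intro l σ
    refine Finset.ext fun w => ?_
    simp only [orb, Finset.mem_image, Finset.mem_univ, true_and, hcomp]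
    constructor
    · rintro ⟨τ, rfl⟩; exact ⟨σ * τ, rfl⟩
    · rintro ⟨τ, rfl⟩
      exact ⟨σ⁻¹ * τ, by
        rw [show (σ : MulAut P) * ((σ⁻¹ * τ : E) : MulAut P) = τ by simp]⟩
  have hne1 : ∀ (o : {o // o ∈ O}) (σ : E), cp (r o) σ ≠ 1 := fun o σ h => hr1 o (by
    rw [← hcp1 (r o), ← show (σ : MulAut P) * (σ⁻¹ : E) = 1 by simp, ← hcomp, h]
    rfl)
  -- decomposition of the non-trivial linear characters
  let Φ : {o // o ∈ O} × E → (P →* ℂˣ) := fun z => cp (r z.1) z.2
  have hdec : ∀ g : (P →* ℂˣ) → ℂ,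
      ∑ l ∈ Finset.univ.filter (fun l : P →* ℂˣ => l ≠ 1), g l =
        ∑ o : {o // o ∈ O}, ∑ σ : E, g (cp (r o) σ) := by
    intro g
    rw [← Fintype.sum_prod_type' (f := fun o σ => g (cp (r o) ((σ : E) : MulAut P)))]
    symm
    refine Finset.sum_bij (fun z _ => Φ z) ?_ ?_ ?_ (fun z _ => rfl)
    · exact fun z _ => Finset.mem_filter.2 ⟨Finset.mem_univ _, hne1 _ _⟩
    · rintro ⟨o, σ⟩ - ⟨o', σ'⟩ - h
      have ho : o = o' := Subtype.ext (by
        rw [← hr o, ← hr o', ← horb (r o) σ, ← horb (r o') σ']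
        exact congrArg orb h)
      subst ho
      refine Prod.ext rfl ?_
      have h2 : cp (r o) ((σ : MulAut P) * (σ' : MulAut P)⁻¹) = r o := by
        rw [← hcomp, show cp (r o) (σ : MulAut P) = cp (r o) (σ' : MulAut P) from h, hcomp,
          mul_inv_cancel, hcp1]
      exact Subtype.ext (mul_inv_eq_one.1 (hdfree _ (hr1 o) _ (mul_mem σ.2 (inv_mem σ'.2)) h2))
    · intro l hl
      obtain ⟨hl1⟩ := And.intro (Finset.mem_filter.1 hl).2 trivial
      let o : {o // o ∈ O} := ⟨orb l, Finset.mem_image.2 ⟨l, hl, rfl⟩⟩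
      have hm : l ∈ orb (r o) := by
        rw [hr o]
        exact Finset.mem_image.2 ⟨1, Finset.mem_univ _, hcp1 l⟩
      obtain ⟨σ, -, hσ⟩ := Finset.mem_image.1 hm
      exact ⟨(o, σ), Finset.mem_univ _, hσ⟩
  -- the coefficients
  have hq : (Fintype.card P : ℂ) ≠ 0 := card_ne
  have hmult : ∀ χ ∈ B, ∀ l, ∀ σ ∈ E, n χ (cp l σ) = n χ l := by
    intro χ hχ l σ hσ
    have h : (n χ (cp l σ) : ℂ) = n χ l := by
      rw [← hn, ← hn, coef, coef]
      congr 1
      refine Fintype.sum_equiv σ.toEquiv _ _ fun u => ?_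
      simp only [hcp, map_inv]
      rw [MulEquiv.toEquiv_eq_coe, MulEquiv.coe_toEquiv, hinv σ hσ u χ hχ]
    exact_mod_cast h
  let bl : IrrCharacter G → (P →* ℂˣ) → ℤ := fun χ l => (n χ l : ℤ) - n χ 1
  let Λ : {o // o ∈ O} → P → ℂ := fun o u => ∑ σ : E, (cp (r o) σ u : ℂ)
  have hval : ∀ χ ∈ B, ∀ u : P, (χ : G → ℂ) (ι u) =
      (n χ 1 : ℂ) * (if u = 1 then (Fintype.card P : ℂ) else 0) +
        ∑ o : {o // o ∈ O}, (bl χ (r o) : ℂ) * Λ o u := by
    intro χ hχ u
    have h1 : ∑ l : P →* ℂˣ, (bl χ l : ℂ) * (l u : ℂ) =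
        ∑ o : {o // o ∈ O}, (bl χ (r o) : ℂ) * Λ o u := by
      rw [← Finset.sum_filter_of_ne (p := fun l : P →* ℂˣ => l ≠ 1) fun l _ h => by
        rintro rfl
        simp [bl] at h, hdec]
      refine Finset.sum_congr rfl fun o _ => ?_
      rw [Finset.mul_sum]
      refine Finset.sum_congr rfl fun σ _ => ?_
      simp only [bl, hmult χ hχ (r o) σ σ.2]
    rw [← h1, eq_sum_coef (fun u => (χ : G → ℂ) (ι u)) u, ← sum_dual u, Finset.mul_sum,
      ← Finset.sum_add_distrib]
    refine Finset.sum_congr rfl fun l _ => ?_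
    simp only [bl, hn]
    push_cast
    ring
  have hbl : ∀ χ l, (Fintype.card P : ℂ) * (bl χ l : ℂ) =
      ∑ u : P, (χ : G → ℂ) (ι u) * ((l u⁻¹ : ℂ) - 1) := fun χ l => by
    have h1 := hn χ l
    have h2 := hn χ 1
    simp only [bl]
    push_cast
    rw [← h1, ← h2, coef, coef, ← mul_sub, ← Finset.sum_sub_distrib, ← mul_assoc,
      mul_inv_cancel₀ hq, one_mul]
    exact Finset.sum_congr rfl fun u _ => by simp [mul_sub]
  have hgram : ∀ l l' : P →* ℂˣ, l ≠ 1 → l' ≠ 1 → ∑ χ ∈ B, (bl χ l : ℂ) * (bl χ l' : ℂ) =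
      ∑ σ : E, ((if cp l' σ = l then (1 : ℂ) else 0) + 1) := by
    intro l l' hl hl'
    refine mul_left_cancel₀ hq (mul_left_cancel₀ hq ?_)
    calc (Fintype.card P : ℂ) * ((Fintype.card P : ℂ) * ∑ χ ∈ B, (bl χ l : ℂ) * (bl χ l' : ℂ))
        = ∑ χ ∈ B, ((Fintype.card P : ℂ) * (bl χ l : ℂ)) *
            conj ((Fintype.card P : ℂ) * (bl χ l' : ℂ)) := by
          rw [Finset.mul_sum, Finset.mul_sum]
          exact Finset.sum_congr rfl fun χ _ => by
            rw [map_mul, Complex.conj_natCast, map_intCast]; ring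
      _ = ∑ u : P, ∑ v : P, ((l u⁻¹ : ℂ) - 1) * ((l' v : ℂ) - 1) *
            ∑ χ ∈ B, (χ : G → ℂ) (ι u) * conj ((χ : G → ℂ) (ι v)) := by
          simp only [hbl, map_sum, Finset.sum_mul_sum]
          rw [Finset.sum_comm]
          refine Finset.sum_congr rfl fun u _ => ?_
          rw [Finset.sum_comm]
          refine Finset.sum_congr rfl fun v _ => ?_
          rw [Finset.mul_sum]
          refine Finset.sum_congr rfl fun χ _ => ?_
          rw [map_mul, map_sub, map_one, apply_inv_eq_conj l' v, Complex.conj_conj]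
          ring
      _ = ∑ u : P, ((l u⁻¹ : ℂ) - 1) * ((Fintype.card P : ℂ) *
            ∑ σ : E, ((l' ((σ : MulAut P) u) : ℂ) - 1)) := by
          refine Finset.sum_congr rfl fun u _ => ?_
          by_cases hu : u = 1
          · simp [hu]
          rw [Finset.mul_sum, Finset.mul_sum]
          have hinjE : Function.Injective fun σ : E => (σ : MulAut P) u := fun σ τ h => by
            have : ((τ : MulAut P)⁻¹ * σ) u = u := by
              show (τ : MulAut P)⁻¹ ((σ : MulAut P) u) = u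
              rw [show (σ : MulAut P) u = (τ : MulAut P) u from h]
              exact MulEquiv.symm_apply_apply _ _
            exact Subtype.ext (inv_mul_eq_one.1
              (hfree _ (mul_mem (inv_mem τ.2) σ.2) u hu this)).symm
          rw [← Finset.sum_subset (Finset.subset_univ
              (Finset.univ.image fun σ : E => (σ : MulAut P) u)) fun v _ hv => ?_,
            Finset.sum_image fun σ _ τ _ h => hinjE h]
          · refine Finset.sum_congr rfl fun σ _ => ?_
            rw [horth u _ hu ((map_ne_one_iff _ (MulEquiv.injective _)).2 hu),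
              if_pos ⟨σ, σ.2, rfl⟩]
            ring
          · by_cases hv1 : v = 1
            · simp [hv1]
            · rw [horth u v hu hv1, if_neg, mul_zero]
              rintro ⟨σ, hσ, rfl⟩
              exact hv (Finset.mem_image.2 ⟨⟨σ, hσ⟩, Finset.mem_univ _, rfl⟩)
      _ = (Fintype.card P : ℂ) * ∑ σ : E, ∑ u : P,
            ((l u⁻¹ : ℂ) - 1) * ((cp l' σ u : ℂ) - 1) := by
          simp only [Finset.mul_sum, hcp]
          rw [Finset.sum_comm]
          exact Finset.sum_congr rfl fun σ _ => Finset.sum_congr rfl fun u _ => by ring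
      _ = (Fintype.card P : ℂ) * ((Fintype.card P : ℂ) *
            ∑ σ : E, ((if cp l' σ = l then (1 : ℂ) else 0) + 1)) := by
          congr 1
          rw [Finset.mul_sum]
          refine Finset.sum_congr rfl fun σ _ => ?_
          have he : ∀ u : P, ((l u⁻¹ : ℂ) - 1) * ((cp l' σ u : ℂ) - 1) =
              ((l⁻¹ * cp l' σ) u : ℂ) - ((l⁻¹) u : ℂ) - (cp l' σ u : ℂ) + 1 := fun u => by
            rw [MonoidHom.mul_apply, Units.val_mul, MonoidHom.inv_apply, map_inv]
            ring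
          have hσ1 : cp l' σ ≠ 1 := fun h => hl' (by
            rw [← hcp1 l', ← show (σ : MulAut P) * (σ⁻¹ : E) = 1 by simp, ← hcomp, h]; rfl)
          rw [Finset.sum_congr rfl fun u _ => he u, Finset.sum_add_distrib, Finset.sum_sub_distrib,
            Finset.sum_sub_distrib, sum_char, sum_char, sum_char, if_neg hσ1,
            if_neg (fun h' => hl (dual_inv_eq_one.1 h')), Finset.sum_const, Finset.card_univ, nsmul_eq_mul, mul_one]
          simp only [dual_inv_mul_eq_one]
          split_ifs <;> ring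
  have hΛ1 : ∀ o, Λ o 1 = (Fintype.card E : ℂ) := fun o => by simp [Λ]
  -- kernels
  let ker : {o // o ∈ O} → Prop := fun o => r o x = 1
  have hker : ∀ o, ∀ σ : E, cp (r o) σ x = 1 ↔ ker o := by
    intro o σ
    obtain ⟨i, hi⟩ := hEx σ σ.2
    simp only [hcp, ker]
    rw [← hi, map_zpow]
    refine ⟨fun h => ?_, fun h => by rw [h, one_zpow]⟩
    by_contra hne
    have ho : orderOf (r o x) = p :=
      ((Nat.dvd_prime hp).1 (hx ▸ orderOf_map_dvd (r o) x)).resolve_left
        fun h1 => hne (orderOf_eq_one_iff.1 h1)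
    rw [← orderOf_dvd_iff_zpow_eq_one, ho, ← hx, orderOf_dvd_iff_zpow_eq_one] at h
    have h1 : (σ : MulAut P) x = 1 := hi.symm.trans h
    rw [map_eq_one_iff _ (MulEquiv.injective _)] at h1
    exact hp.one_lt.ne (by rw [← hx, h1, orderOf_one])
  refine ⟨{o // o ∈ O}, inferInstance, Λ, ker, fun χ o => bl χ (r o), fun χ => n χ 1,
    ?_, fun χ _ o => ?_, fun χ hχ u hu => ?_, fun χ hχ => ?_, fun o o' => ?_, fun o => ?_,
    fun u hu => ?_, fun o u => ?_, fun o ho => ?_, fun o => ?_, fun hlt => ?_, fun heq o ho => ?_,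
    fun χ hχ hone => ?_⟩
  · have h := hdec fun _ => 1
    rw [Finset.sum_const, Finset.filter_ne', Finset.card_erase_of_mem (Finset.mem_univ _),
      Finset.card_univ, card_dual] at h
    simp only [Finset.sum_const, Finset.card_univ, nsmul_eq_mul, mul_one] at h
    have h' : Fintype.card P - 1 = Fintype.card {o // o ∈ O} * Fintype.card E := by exact_mod_cast h
    have := Fintype.card_pos (α := P)
    omega
  · simp [bl]
  · rw [hval χ hχ u, if_neg hu, mul_zero, zero_add]
  · have h := hval χ hχ 1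
    rw [map_one, if_pos rfl] at h
    simp only [hΛ1] at h
    rw [h, Finset.mul_sum]
    push_cast
    congr 1
    · ring
    · exact Finset.sum_congr rfl fun o _ => by ring
  · have h := hgram _ _ (hr1 o) (hr1 o')
    rw [Finset.sum_add_distrib, Finset.sum_const, Finset.card_univ, nsmul_eq_mul, mul_one] at h
    have hc : ∑ σ : E, (if cp (r o') σ = r o then (1 : ℂ) else 0) = if o = o' then 1 else 0 := by
      by_cases ho : o = o'
      · subst ho
        rw [if_pos rfl, Finset.sum_eq_single (1 : E)]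
        · rw [if_pos (show cp (r o) ((1 : E) : MulAut P) = r o from hcp1 _)]
        · intro σ _ hσ
          rw [if_neg fun h => hσ (Subtype.ext (hdfree _ (hr1 o) _ σ.2 h))]
        · simp
      · rw [if_neg ho]
        refine Finset.sum_eq_zero fun σ _ => if_neg fun h => ho (Subtype.ext ?_)
        rw [← hr o, ← hr o', ← horb (r o') σ, h]
    rw [hc, add_comm] at h
    split_ifs at h ⊢ <;> exact_mod_cast h
  · refine mul_left_cancel₀ hq ?_
    rw [mul_zero, Finset.mul_sum]
    simp only [← mul_assoc, hbl, Finset.sum_mul]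
    rw [Finset.sum_comm]
    refine Finset.sum_eq_zero fun u _ => ?_
    by_cases hu : u = 1
    · simp [hu]
    · rw [Finset.sum_congr rfl fun (χ : IrrCharacter G) _ => show (χ : G → ℂ) (ι u) * ((r o u⁻¹ : ℂ) - 1) * (χ : G → ℂ) 1 =
        ((r o u⁻¹ : ℂ) - 1) * ((χ : G → ℂ) (ι u) * conj ((χ : G → ℂ) 1)) by
          rw [Char.apply_one_eq_charDegree (Char.isCharacter_of_isIrr χ.2), Complex.conj_natCast]
          ring, ← Finset.mul_sum, horth1 u hu, mul_zero]
  · have h := sum_dual u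
    rw [if_neg hu, ← Finset.add_sum_erase _ _ (Finset.mem_univ (1 : P →* ℂˣ)), ← Finset.filter_ne',
      MonoidHom.one_apply, Units.val_one, hdec] at h
    exact eq_neg_of_add_eq_zero_right h
  · refine IsIntegral.sum _ fun σ _ => IsIntegral.of_pow (Fintype.card_pos (α := P)) ?_
    rw [← Units.val_pow_eq_pow_val, ← map_pow, pow_card_eq_one, map_one, Units.val_one]
    exact isIntegral_one
  · simp only [Λ, (hker o _).2 ho, Units.val_one, Finset.sum_const, Finset.card_univ, nsmul_eq_mul,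
      mul_one]
  · simp only [Λ, map_sum, map_pow, Units.val_pow_eq_pow_val]
    rw [Finset.sum_comm, Finset.sum_congr rfl fun σ _ => show
      ∑ l ∈ Finset.Ico 1 p, conj (cp (r o) ((σ : E) : MulAut P) x : ℂ) ^ l =
        if ker o then (p : ℂ) - 1 else -1 by
        rw [sum_pow_Ico hp.one_lt]
        · refine if_congr ?_ rfl rfl
          rw [← hker o σ, ← map_one (starRingEnd ℂ), (RingHom.injective _).eq_iff, Units.val_eq_one]
        · rw [← map_pow, ← Units.val_pow_eq_pow_val, ← map_pow, ← hx, pow_orderOf_eq_one, map_one,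
            Units.val_one, map_one],
      Finset.sum_const, Finset.card_univ, nsmul_eq_mul]
    split_ifs <;> rfl
  · obtain ⟨y, hy⟩ : ∃ y, y ∉ Subgroup.zpowers x := by
      by_contra hall
      push Not at hall
      have := Nat.card_congr (Equiv.subtypeUnivEquiv hall)
      rw [Nat.card_eq_fintype_card (α := P)] at this
      rw [show Nat.card {y // y ∈ Subgroup.zpowers x} = p from (Nat.card_zpowers x).trans hx] at this
      omega
    obtain ⟨φ, hφ⟩ := CommGroup.exists_apply_ne_one_of_hasEnoughRootsOfUnity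
      (P ⧸ Subgroup.zpowers x) ℂ (a := (y : P ⧸ Subgroup.zpowers x))
      (fun h => hy ((QuotientGroup.eq_one_iff y).1 h))
    set l : P →* ℂˣ := φ.comp (QuotientGroup.mk' (Subgroup.zpowers x)) with hl
    have hl1 : l ≠ 1 := fun h => hφ (DFunLike.congr_fun h y)
    have hlx : l x = 1 := by
      rw [hl, MonoidHom.comp_apply, QuotientGroup.mk'_apply,
        (QuotientGroup.eq_one_iff x).2 (Subgroup.mem_zpowers x), map_one]
    let o : {o // o ∈ O} := ⟨orb l, Finset.mem_image.2
      ⟨l, Finset.mem_filter.2 ⟨Finset.mem_univ _, hl1⟩, rfl⟩⟩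
    have hm : l ∈ orb (r o) := by
      rw [hr o]
      exact Finset.mem_image.2 ⟨1, Finset.mem_univ _, hcp1 l⟩
    obtain ⟨σ, -, hσ⟩ := Finset.mem_image.1 hm
    exact ⟨o, (hker o σ).1 (by rw [hσ]; exact hlx)⟩
  · refine hr1 o (MonoidHom.ext fun w => ?_)
    have htop : Subgroup.zpowers x = ⊤ := by
      rw [← Subgroup.card_eq_iff_eq_top, Nat.card_zpowers, hx, Nat.card_eq_fintype_card, heq]
    obtain ⟨i, rfl⟩ : w ∈ Subgroup.zpowers x := htop ▸ Subgroup.mem_top w
    simp only [map_zpow, MonoidHom.one_apply]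
    rw [show r o x = 1 from ho, one_zpow]
  · have h : ∀ l, n χ l = if l = 1 then 1 else 0 := fun l => by
      have h := hn χ l
      rw [coef, Finset.sum_congr rfl fun u _ => show (χ : G → ℂ) (ι u) * (l u⁻¹ : ℂ) = ((l⁻¹) u : ℂ) by
        rw [hone u, one_mul, MonoidHom.inv_apply, map_inv], sum_char] at h
      by_cases hl : l = 1
      · rw [if_pos (dual_inv_eq_one.2 hl), inv_mul_cancel₀ hq] at h
        rw [if_pos hl]
        exact_mod_cast h.symm
      · rw [if_neg (fun h' => hl (dual_inv_eq_one.1 h')), mul_zero] at h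
        rw [if_neg hl]
        exact_mod_cast h.symm
    exact ⟨(h 1).trans (if_pos rfl), fun o => by simp only [bl, h, if_pos, if_neg (hr1 o)]; norm_num⟩

open scoped Classical in
/-- Integral vectors with the Gram matrix of exceptional characters. -/
theorem exists_coherent_vectors {T : Type u} [Fintype T] (hT : 1 < Fintype.card T)
    (B : Finset (IrrCharacter G)) (b : IrrCharacter G → T → ℤ) {m : ℤ}
    (hgram : ∀ t s, ∑ χ ∈ B, b χ t * b χ s = m + if t = s then 1 else 0)
    (hdeg : ∀ t, ∑ χ ∈ B, (b χ t : ℂ) * (χ : G → ℂ) 1 = 0) :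
    ∃ (μ : T → IrrCharacter G) (ε γ : ℤ), Function.Injective μ ∧ (∀ t, μ t ∈ B) ∧ (ε = 1 ∨ ε = -1) ∧
      (∀ t s, b (μ s) t = γ + if t = s then ε else 0) ∧
      (∀ t s, (μ t : G → ℂ) 1 = (μ s : G → ℂ) 1) ∧
      ∃ c : IrrCharacter G → ℤ, (∀ χ ∈ B, (∀ t, μ t ≠ χ) → ∀ t, b χ t = c χ) ∧
        ∑ χ ∈ B.filter (fun χ => ∀ t, μ t ≠ χ), c χ ^ 2 + (Fintype.card T : ℤ) * γ ^ 2 + 2 * ε * γ
          = m := by
  obtain ⟨t₀⟩ : Nonempty T := Fintype.card_pos_iff.1 (by omega)
  let F : T → G → ℂ := fun t => ∑ χ ∈ B, b χ t • (χ : G → ℂ)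
  have hFgen : ∀ t, IsGeneralizedCharacter G (F t) := fun t => Dade.generalized_sum _ _ fun χ _ =>
    Dade.generalized_zsmul (Dade.generalized_of_isCharacter (Char.isCharacter_of_isIrr χ.2)) _
  have hFin : ∀ t (ψ : IrrCharacter G),
      classInner (F t) (ψ : G → ℂ) = if ψ ∈ B then (b ψ t : ℂ) else 0 := fun t ψ => by
    simp only [F, Char.classInner_sum_left, Dade.classInner_zsmul_left,
      Char.classInner_irrCharacter, mul_ite, mul_one, mul_zero, Finset.sum_ite_eq']
  have hFF : ∀ t s, classInner (F t) (F s) = ((m + if t = s then 1 else 0 : ℤ) : ℂ) := fun t s => by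
    rw [show F s = ∑ χ ∈ B, b χ s • (χ : G → ℂ) from rfl, Char.classInner_sum_right,
      ← hgram t s, Int.cast_sum]
    refine Finset.sum_congr rfl fun χ hχ => ?_
    rw [Dade.classInner_zsmul_right, hFin, if_pos hχ]
    push_cast
    ring
  obtain ⟨εC, hεC, μ, hμ, hτ⟩ := Char.exists_coherent_family t₀ (fun t => F t - F t₀) (sub_self _)
    (fun t => Dade.generalized_sub (hFgen t) (hFgen t₀)) (fun t => by
      simp only [F, Pi.sub_apply, Finset.sum_apply, Pi.smul_apply, zsmul_eq_mul, Pi.mul_apply,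
        Pi.intCast_apply, hdeg, sub_self])
    fun i j hi hj => by
      constructor <;> intro hij <;>
        simp only [Char.classInner_sub_left, Char.classInner_sub_right, hFF, if_neg hi,
          if_neg (Ne.symm hj), if_true]
      · subst hij; simp only [if_true]; push_cast; ring
      · rw [if_neg hij]; push_cast; ring
  obtain ⟨ε, hε, rfl⟩ : ∃ ε : ℤ, (ε = 1 ∨ ε = -1) ∧ εC = (ε : ℂ) := by
    rcases hεC with h | h
    · exact ⟨1, Or.inl rfl, by simp [h]⟩
    · exact ⟨-1, Or.inr rfl, by simp [h]⟩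
  have hε2 : ε * ε = 1 := by rcases hε with rfl | rfl <;> norm_num
  have hdiff : ∀ t (χ : IrrCharacter G),
      ((if χ ∈ B then b χ t - b χ t₀ else 0 : ℤ)) =
        ε * ((if μ t = χ then 1 else 0) - (if μ t₀ = χ then 1 else 0)) := by
    intro t χ
    have h := congrArg (fun f => classInner f (χ : G → ℂ)) (hτ t)
    simp only [Char.classInner_sub_left, Char.classInner_smul_left, Char.classInner_irrCharacter,
      hFin] at h
    apply Int.cast_injective (α := ℂ)
    rw [Int.cast_mul, Int.cast_sub, apply_ite (Int.cast : ℤ → ℂ), apply_ite (Int.cast : ℤ → ℂ),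
      apply_ite (Int.cast : ℤ → ℂ), Int.cast_sub, Int.cast_one, Int.cast_zero, ← h]
    split_ifs <;> simp
  obtain ⟨t₁, ht₁⟩ := Fintype.exists_ne_of_one_lt_card hT t₀
  have hμB : ∀ t, μ t ∈ B := by
    intro t
    by_contra hn
    rcases eq_or_ne t t₀ with rfl | ht
    · have h := hdiff t₁ (μ t)
      rw [if_neg hn, if_neg (fun e => ht₁ (hμ e)), if_pos rfl] at h
      rcases hε with rfl | rfl <;> simp at h
    · have h := hdiff t (μ t)
      rw [if_neg hn, if_pos rfl, if_neg (fun e => ht (hμ e).symm)] at h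
      rcases hε with rfl | rfl <;> simp at h
  let c : IrrCharacter G → ℤ := fun χ => b χ t₀ - ε * (if μ t₀ = χ then 1 else 0)
  have hbc : ∀ χ ∈ B, ∀ t, b χ t = c χ + ε * (if μ t = χ then 1 else 0) := fun χ hχ t => by
    have h := hdiff t χ
    rw [if_pos hχ] at h
    simp only [c]
    linear_combination h
  set I := Finset.univ.image μ with hI
  have hIB : I ⊆ B := fun χ hχ => by
    obtain ⟨t, -, rfl⟩ := Finset.mem_image.1 hχ
    exact hμB t
  have hexp : ∀ t, ∑ χ ∈ B, c χ ^ 2 + 2 * ε * c (μ t) = m := by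
    intro t
    have h := hgram t t
    rw [if_pos rfl, Finset.sum_congr rfl (g := fun χ => c χ ^ 2 +
      (if μ t = χ then 2 * ε * c χ + 1 else 0)) fun χ hχ => by
        rw [hbc χ hχ t]
        split_ifs
        · linear_combination hε2
        · ring,
      Finset.sum_add_distrib, Finset.sum_ite_eq, if_pos (hμB t)] at h
    linarith
  have hγ : ∀ t, c (μ t) = c (μ t₀) := fun t => by
    have h1 := hexp t
    have h2 := hexp t₀
    rcases hε with rfl | rfl <;> linarith
  refine ⟨μ, ε, c (μ t₀), hμ, hμB, hε, fun t s => ?_, fun t s => ?_, c,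
    fun χ hχ hne t => by rw [hbc χ hχ t, if_neg (hne t), mul_zero, add_zero], ?_⟩
  · rw [hbc _ (hμB s) t, hγ s]
    simp only [hμ.eq_iff, mul_ite, mul_one, mul_zero]
  · have h1 : ∀ u, (((∑ χ ∈ B, c χ * (charDegree (χ : G → ℂ) : ℤ)) : ℤ) : ℂ) +
        (ε : ℂ) * (μ u : G → ℂ) 1 = 0 := fun u => by
      rw [← hdeg u, Finset.sum_congr rfl (g := fun χ : IrrCharacter G =>
        (c χ : ℂ) * (χ : G → ℂ) 1 + if μ u = χ then (ε : ℂ) * (χ : G → ℂ) 1 else 0) fun χ hχ => by
          rw [hbc χ hχ u]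
          split_ifs <;> push_cast <;> ring,
        Finset.sum_add_distrib, Finset.sum_ite_eq, if_pos (hμB u)]
      push_cast
      congr 1
      exact Finset.sum_congr rfl fun χ _ => by
        rw [Char.apply_one_eq_charDegree (Char.isCharacter_of_isIrr χ.2)]
    refine mul_left_cancel₀ ?_ (add_left_cancel ((h1 t).trans (h1 s).symm))
    rcases hε with rfl | rfl <;> simp
  · have hsplit := Finset.sum_sdiff (f := fun χ => c χ ^ 2) hIB
    have hI2 : ∑ χ ∈ I, c χ ^ 2 = (Fintype.card T : ℤ) * c (μ t₀) ^ 2 := by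
      rw [hI, Finset.sum_image fun _ _ _ _ e => hμ e,
        Finset.sum_congr rfl (g := fun _ => c (μ t₀) ^ 2) fun t _ => by rw [hγ t],
        Finset.sum_const, Finset.card_univ, nsmul_eq_mul]
    have hset : B.filter (fun χ => ∀ t, μ t ≠ χ) = B \ I := by
      ext χ
      simp [hI]
    rw [hset]
    linarith [hexp t₀]

end Cfsg.Agent.Lib.PairSolvable
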